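import Cfsg.Agent.Loc.MssSyl
import Cfsg.Agent.GT.PConstrained
import Cfsg.Agent.GT.TransferPNilp

/-! Reduction modulo `O_{p'}(H)` as a function on the ambient group. -/

set_option autoImplicit false

namespace Cfsg.Agent.PS2

open Cfsg Cfsg.Agent.GT Cfsg.Agent.Loc.Mss Subgroup
open scoped commutatorElement

variable {G : Type*} [Group G] {p : ℕ}

/-- `x` is a `p`-element. -/
def PE (p : ℕ) (x : G) : Prop := ∃ k, x ^ p ^ k = 1

/-- `x` is a `p'`-element. -/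
def RE (p : ℕ) (x : G) : Prop := ∃ m, m.Coprime p ∧ x ^ m = 1

theorem PE.eq_one {x : G} (h : PE p x) (h' : RE p x) : x = 1 := by
  obtain ⟨k, hk⟩ := h
  obtain ⟨m, hm, hx⟩ := h'
  have := (pow_gcd_eq_one.2 ⟨hx, hk⟩ : x ^ Nat.gcd m (p ^ k) = 1)
  rwa [(hm.pow_right k).gcd_eq_one, pow_one] at this

theorem PE.of_mem {Q : Subgroup G} (hQ : IsPGroup p Q) {x : G} (hx : x ∈ Q) : PE p x :=
  pg_iff.1 hQ x hx

theorem RE.of_mem {K : Subgroup G} (hK : (Nat.card K).Coprime p) {x : G} (hx : x ∈ K) :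
    RE p x :=
  ⟨_, hK, congrArg Subtype.val (pow_card_eq_one' (x := (⟨x, hx⟩ : K)))⟩

theorem PE.mul {x y : G} (hx : PE p x) (hy : PE p y) (h : x * y = y * x) : PE p (x * y) := by
  obtain ⟨k, hk⟩ := hx
  obtain ⟨l, hl⟩ := hy
  refine ⟨k + l, ?_⟩
  rw [(show Commute x y from h).mul_pow, pow_add, pow_mul, hk, one_pow, mul_comm (p ^ k),
    pow_mul, hl, one_pow, one_mul]

theorem PE.inv {x : G} (hx : PE p x) : PE p x⁻¹ := by
  obtain ⟨k, hk⟩ := hx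
  exact ⟨k, by rw [inv_pow, hk, inv_one]⟩

theorem PE.conj {x : G} (hx : PE p x) (g : G) : PE p (g * x * g⁻¹) := by
  obtain ⟨k, hk⟩ := hx
  exact ⟨k, by rw [conj_pow, hk, mul_one, mul_inv_cancel]⟩

theorem PE.pg {x : G} (hx : PE p x) : IsPGroup p (zpowers x) := by
  obtain ⟨k, hk⟩ := hx
  refine pg_iff.2 fun y hy => ⟨k, ?_⟩
  obtain ⟨n, rfl⟩ := mem_zpowers_iff.1 hy
  rw [← zpow_natCast, ← zpow_mul, mul_comm, zpow_mul, zpow_natCast, hk, one_zpow]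

theorem closure_le_cent {S : Set G} (h : ∀ x ∈ S, ∀ y ∈ S, x * y = y * x) :
    closure S ≤ 𝐂[closure S] := by
  rw [centralizer_closure, closure_le]
  intro x hx
  exact mem_centralizer_iff.2 fun y hy => h y hy x hx

theorem pg_closure {S : Set G} (h : ∀ x ∈ S, ∀ y ∈ S, x * y = y * x) (hp : ∀ x ∈ S, PE p x) :
    IsPGroup p (closure S) := by
  refine pg_iff.2 fun x hx => ?_
  induction hx using closure_induction with
  | mem x hx => exact hp x hx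
  | one => exact ⟨0, one_pow _⟩
  | mul x y hx hy h1 h2 => exact PE.mul h1 h2 (mem_cent.1 (closure_le_cent h hy) x hx)
  | inv x _ h1 => exact PE.inv h1

/-- `H / O_{p'}(H)`. -/
abbrev Qt (p : ℕ) (H : Subgroup G) := H ⧸ pPrimeCore p H

open Classical in
/-- The image of an element of `H` in `H / O_{p'}(H)`. -/
noncomputable def bar (p : ℕ) (H : Subgroup G) (x : G) : Qt p H :=
  if h : x ∈ H then QuotientGroup.mk ⟨x, h⟩ else 1

/-- The image of `A ∩ H` in `H / O_{p'}(H)`. -/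
def bmap (p : ℕ) (H A : Subgroup G) : Subgroup (Qt p H) :=
  (A.subgroupOf H).map (QuotientGroup.mk' _)

variable {H : Subgroup G}

theorem bar_of {x : G} (hx : x ∈ H) : bar p H x = QuotientGroup.mk ⟨x, hx⟩ := dif_pos hx

theorem bar_mul {x y : G} (hx : x ∈ H) (hy : y ∈ H) :
    bar p H (x * y) = bar p H x * bar p H y := by
  rw [bar_of hx, bar_of hy, bar_of (H.mul_mem hx hy)]; rfl

theorem bar_inv {x : G} (hx : x ∈ H) : bar p H x⁻¹ = (bar p H x)⁻¹ := by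
  rw [bar_of hx, bar_of (H.inv_mem hx)]; rfl

theorem bar_one : bar p H 1 = 1 := by rw [bar_of H.one_mem]; rfl

theorem bar_pow {x : G} (hx : x ∈ H) (n : ℕ) : bar p H (x ^ n) = bar p H x ^ n := by
  rw [bar_of hx, bar_of (H.pow_mem hx n)]; rfl

theorem bar_conj {g x : G} (hg : g ∈ H) (hx : x ∈ H) :
    bar p H (g * x * g⁻¹) = bar p H g * bar p H x * (bar p H g)⁻¹ := by
  rw [bar_mul (H.mul_mem hg hx) (H.inv_mem hg), bar_mul hg hx, bar_inv hg]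

theorem comm_mem {x y : G} (hx : x ∈ H) (hy : y ∈ H) : ⁅x, y⁆ ∈ H :=
  H.mul_mem (H.mul_mem (H.mul_mem hx hy) (H.inv_mem hx)) (H.inv_mem hy)

theorem bar_comm {x y : G} (hx : x ∈ H) (hy : y ∈ H) :
    bar p H ⁅x, y⁆ = ⁅bar p H x, bar p H y⁆ := by
  rw [bar_of hx, bar_of hy, bar_of (comm_mem hx hy)]; rfl

theorem bar_eq_one {x : G} (hx : x ∈ H) : bar p H x = 1 ↔ x ∈ pPrimeCoreOf p H := by
  rw [bar_of hx, QuotientGroup.eq_one_iff]
  constructor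
  · intro h; exact ⟨_, h, rfl⟩
  · rintro ⟨y, hy, rfl⟩; exact hy

theorem bar_surj (γ : Qt p H) : ∃ x ∈ H, bar p H x = γ := by
  obtain ⟨x, rfl⟩ := QuotientGroup.mk_surjective γ
  exact ⟨x, x.2, bar_of x.2⟩

theorem PE.bar {x : G} (h : PE p x) (hx : x ∈ H) : PE p (bar p H x) := by
  obtain ⟨k, hk⟩ := h
  exact ⟨k, by rw [← bar_pow hx, hk, bar_one]⟩

theorem RE.bar {x : G} (h : RE p x) (hx : x ∈ H) : RE p (bar p H x) := by
  obtain ⟨m, hm, hk⟩ := h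
  exact ⟨m, hm, by rw [← bar_pow hx, hk, bar_one]⟩

theorem mem_bmap {A : Subgroup G} {γ : Qt p H} :
    γ ∈ bmap p H A ↔ ∃ x ∈ A, x ∈ H ∧ bar p H x = γ := by
  constructor
  · rintro ⟨x, hx, rfl⟩
    exact ⟨x, hx, x.2, bar_of x.2⟩
  · rintro ⟨x, hx, hH, rfl⟩
    exact ⟨⟨x, hH⟩, hx, (bar_of hH).symm⟩

theorem bar_mem_norm {A : Subgroup G} {x : G} (hx : x ∈ H) (hn : x ∈ 𝐍[A]) :
    bar p H x ∈ 𝐍[bmap p H A] := by
  have key : ∀ {y : G}, y ∈ H → y ∈ 𝐍[A] → ∀ γ ∈ bmap p H A,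
      bar p H y * γ * (bar p H y)⁻¹ ∈ bmap p H A := by
    intro y hy hyn γ hγ
    obtain ⟨a, ha, haH, rfl⟩ := mem_bmap.1 hγ
    exact mem_bmap.2 ⟨_, conj_mem_of_norm hyn ha, H.mul_mem (H.mul_mem hy haH) (H.inv_mem hy),
      bar_conj hy haH⟩
  refine mem_normalizer_iff.2 fun γ => ⟨key hx hn γ, fun h => ?_⟩
  have := key (H.inv_mem hx) (inv_mem hn) _ h
  rw [bar_inv hx] at this
  simpa [mul_assoc] using this

variable [Finite G] [hp : Fact p.Prime]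

omit hp in
theorem RE.of_core {x : G} (hx : x ∈ pPrimeCoreOf p H) : RE p x :=
  RE.of_mem (coprime_card_pPrimeCoreOf p H) hx

theorem core_lift {T : Subgroup G} (hT : Syl p T H) {q : Qt p H} (hq : q ∈ pCore p (Qt p H)) :
    ∃ v ∈ T, bar p H v = q := by
  obtain ⟨P, hP, -⟩ := hT.exists_sylow
  have := pCore_le_sylow (P.mapSurjective (QuotientGroup.mk'_surjective (pPrimeCore p H))) hq
  rw [Sylow.coe_mapSurjective, hP] at this
  obtain ⟨x, hx, -, rfl⟩ := mem_bmap.1 this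
  exact ⟨x, hx, rfl⟩

omit hp in
theorem eq_of_bar_eq {T : Subgroup G} (hT : IsPGroup p T) (hle : T ≤ H) {x y : G} (hx : x ∈ T)
    (hy : y ∈ T) (h : bar p H x = bar p H y) : x = y := by
  have h1 : x⁻¹ * y ∈ T := T.mul_mem (T.inv_mem hx) hy
  have h2 : bar p H (x⁻¹ * y) = 1 := by
    rw [bar_mul (H.inv_mem (hle hx)) (hle hy), bar_inv (hle hx), h, inv_mul_cancel]
  exact inv_mul_eq_one.1 ((PE.of_mem hT h1).eq_one (RE.of_core ((bar_eq_one (hle h1)).1 h2)))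

theorem conj_into {T : Subgroup G} (hT : Syl p T H) {d t : G} (hd : d ∈ H) (hpe : PE p d)
    (ht : t ∈ T) (h : bar p H t = bar p H d) : ∃ k ∈ pPrimeCoreOf p H, k * d * k⁻¹ = t := by
  have hn : T ≤ 𝐍[pPrimeCoreOf p H] := hT.le.trans (le_normalizer_pPrimeCoreOf H)
  have h1 : t⁻¹ * d ∈ pPrimeCoreOf p H := by
    rw [← bar_eq_one (H.mul_mem (H.inv_mem (hT.le ht)) hd), bar_mul (H.inv_mem (hT.le ht)) hd,
      bar_inv (hT.le ht), h, inv_mul_cancel]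
  have h2 : d ∈ T ⊔ pPrimeCoreOf p H := (mem_sup_norm' hn).2 ⟨t, ht, _, h1, by group⟩
  have hS : Syl p T (T ⊔ pPrimeCoreOf p H) :=
    hT.mono le_sup_left (sup_le hT.le (pPrimeCoreOf_le H))
  obtain ⟨g, hg, hc⟩ := hS.conj_le hpe.pg (zpowers_le.2 h2)
  obtain ⟨s, hs, k, hk, rfl⟩ := (mem_sup_norm' hn).1 hg
  have h3 := cj_le_iff.1 hc d (mem_zpowers d)
  have h4 : k * d * k⁻¹ ∈ T := by
    have := T.mul_mem (T.mul_mem (T.inv_mem hs) h3) hs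
    convert this using 1
    group
  have hkH := pPrimeCoreOf_le H hk
  refine ⟨k, hk, eq_of_bar_eq hT.pg hT.le h4 ht ?_⟩
  rw [bar_conj hkH hd, (bar_eq_one hkH).2 hk, h]
  simp

theorem exists_conj_cent {T : Subgroup G} (hT : Syl p T H) {u o : G} (hu : u ∈ T)
    (ho : o ∈ pPrimeCoreOf p H) :
    ∃ v ∈ pPrimeCoreOf p H, v * u = u * v ∧ IsConj (u * o) (u * v) := by
  have huH := hT.le hu
  have hoH := pPrimeCoreOf_le H ho
  obtain ⟨a, ha, b, hb, ⟨k, hk⟩, hcop, hab⟩ := Tr.exists_pPart_mul_pPrimePart (p := p) (u * o)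
  have hz : zpowers (u * o) ≤ H := zpowers_le.2 (H.mul_mem huH hoH)
  have hc : a * b = b * a := by
    obtain ⟨i, rfl⟩ := mem_zpowers_iff.1 ha
    obtain ⟨j, rfl⟩ := mem_zpowers_iff.1 hb
    exact (Commute.refl _).zpow_zpow i j
  have hpa : PE p a := ⟨k, by rw [← hk, pow_orderOf_eq_one]⟩
  have hrb : RE p b := ⟨_, hcop, pow_orderOf_eq_one b⟩
  have e1 : bar p H u = bar p H a * bar p H b := by
    rw [← bar_mul (hz ha) (hz hb), ← hab, bar_mul huH hoH, (bar_eq_one hoH).2 ho, mul_one]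
  have e2 : bar p H a * bar p H b = bar p H b * bar p H a := by
    rw [← bar_mul (hz ha) (hz hb), hc, bar_mul (hz hb) (hz ha)]
  have e3 : bar p H b = 1 := by
    refine PE.eq_one ?_ (hrb.bar (hz hb))
    have : bar p H b = (bar p H a)⁻¹ * bar p H u := by rw [e1]; group
    rw [this]
    refine (hpa.bar (hz ha)).inv.mul ((PE.of_mem hT.pg hu).bar huH) ?_
    rw [e1]
    conv_rhs => rw [e2]
    group
  obtain ⟨c, hc1, hc2⟩ := conj_into hT (hz ha) hpa hu (by rw [e1, e3, mul_one])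
  refine ⟨c * b * c⁻¹, mul_mem (mul_mem hc1 ((bar_eq_one (hz hb)).1 e3)) (inv_mem hc1), ?_,
    isConj_iff.2 ⟨c, ?_⟩⟩
  · rw [← hc2]
    calc c * b * c⁻¹ * (c * a * c⁻¹) = c * (b * a) * c⁻¹ := by group
      _ = c * a * c⁻¹ * (c * b * c⁻¹) := by rw [← hc]; group
  · rw [hab, ← hc2]; group

omit hp in
theorem abs_b {Γ : Type*} [Group Γ] [Finite Γ]
    (hc : centralizer (pCore p Γ : Set Γ) ≤ pCore p Γ) {α β : Γ} {Y : Subgroup Γ}
    (hα : α ∈ 𝐍[Y]) (hβ : β ∈ 𝐍[Y]) (h1 : ∀ q ∈ pCore p Γ, ⁅q, α⁆ ∈ 𝐂[Y])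
    (h2 : ∀ q ∈ pCore p Γ, ⁅q, β⁆ ∈ 𝐂[Y]) (hξ : ⁅α, β⁆ ∈ Y) (hr : RE p ⁅α, β⁆) :
    ⁅α, β⁆ = 1 := by
  have hQ : (pCore p Γ).Normal := inferInstance
  have key : ∀ γ ∈ 𝐍[Y], (∀ q ∈ pCore p Γ, ⁅q, γ⁆ ∈ 𝐂[Y]) →
      γ ∈ cmod (pCore p Γ) (pCore p Γ ⊓ 𝐂[Y]) := by
    intro γ hγ h
    refine mem_cmod.2 ⟨?_, fun q hq => ⟨?_, h q hq⟩⟩
    · exact norm_inf (norm_normal _ _) (norm_cent le_rfl) hγ
    · rw [commutatorElement_def, mul_assoc, mul_assoc, ← mul_assoc γ]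
      exact mul_mem hq (hQ.conj_mem _ (inv_mem hq) γ)
  have h3 := comm_mem (key α hα h1) (key β hβ h2)
  generalize ⁅α, β⁆ = ξ at *
  refine (PE.of_mem (isPGroup_pCore p) (hc (mem_centralizer_iff.2 fun q hq => ?_))).eq_one hr
  obtain ⟨hcq, hcc⟩ := (mem_cmod.1 h3).2 q hq
  obtain ⟨m, hm, hξm⟩ := hr
  have h4 : Commute ⁅q, ξ⁆ ξ := (mem_cent.1 hcc ξ hξ).symm
  have h5 : ⁅q, ξ⁆ ^ m = 1 := by
    have : (⁅q, ξ⁆ * ξ) ^ m = 1 := by
      rw [commutatorElement_def, inv_mul_cancel_right, conj_pow, hξm, mul_one, mul_inv_cancel]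
    rwa [h4.mul_pow, hξm, mul_one] at this
  exact commutatorElement_eq_one_iff_mul_comm.1
    ((PE.of_mem (isPGroup_pCore p) hcq).eq_one ⟨m, hm, h5⟩)

end Cfsg.Agent.PS2
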