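import Cfsg.Agent.PS2.Char

/-! The principal-block computation of S3019. -/

set_option autoImplicit false

open Cfsg ComplexConjugate Cfsg.Agent.Ch Cfsg.Agent.Blk

namespace Cfsg.Agent.PS2

variable {G : Type*} [Group G] {p : ℕ} {M : Ideal AlgInt}

theorem ord_of_mem [Fact p.Prime] {V : Subgroup G} (hV : IsPGroup p V) {c : G} (hc : c ∈ V) :
    ∃ k, orderOf c = p ^ k := by
  obtain ⟨k, hk⟩ := IsPGroup.iff_orderOf.1 hV ⟨c, hc⟩
  exact ⟨k, by rw [← hk, Subgroup.orderOf_mk]⟩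

theorem dvd_ord_of_mem [Fact p.Prime] {V : Subgroup G} (hV : IsPGroup p V) {c : G} (hc : c ∈ V)
    (h1 : c ≠ 1) : p ∣ orderOf c := by
  obtain ⟨k, hk⟩ := ord_of_mem hV hc
  rcases k with _ | k
  · exact absurd (orderOf_eq_one_iff.1 (by simpa using hk)) h1
  · rw [hk]; exact dvd_pow_self p (Nat.succ_ne_zero k)

theorem isPPart_self [hp : Fact p.Prime] {c : G} (hc : ∃ k, orderOf c = p ^ k) : IsPPart p c c :=
  ⟨1, mul_one c, Commute.one_right c, hc, by simpa using hp.out.ne_one⟩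

theorem deg_sq_ge [Finite G] [Fact p.Prime] (hM : IsPModular p M) {R : Subgroup G}
    (hR : IsPGroup p R) :
    (Nat.card R : ℝ) ≤ (∑ ψ ∈ PB.pb M G, (ψ : G → ℂ) 1 * (ψ : G → ℂ) 1).re := by
  classical
  haveI := Fintype.ofFinite G
  have h1 : ∑ r : R, ∑ ψ ∈ PB.pb M G, (ψ : G → ℂ) 1 * (ψ : G → ℂ) r =
      ∑ ψ ∈ PB.pb M G, (ψ : G → ℂ) 1 * (ψ : G → ℂ) 1 := by
    rw [Finset.sum_eq_single (1 : R)]
    · rfl
    · intro r _ hr
      exact PB.sum_mul_eq_zero_of_regular hM (by simpa using hM.1.ne_one)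
        (dvd_ord_of_mem hR r.2 (by simpa using hr))
    · simp
  rw [← h1, Finset.sum_comm, Complex.re_sum]
  have h2 : ∀ ψ ∈ PB.pb M G, 0 ≤ (∑ r : R, (ψ : G → ℂ) 1 * (ψ : G → ℂ) r).re := by
    intro ψ _
    rw [← Finset.mul_sum, ← ψ.2.coe_charDegree, re_nat_mul]
    exact mul_nonneg (Nat.cast_nonneg _) (sum_sub_nonneg ψ.2 R)
  refine le_trans (le_of_eq ?_) (Finset.single_le_sum h2 (PB.one_mem_pb hM))
  simp

theorem norm_ge [Finite G] [Fact p.Prime] (hM : IsPModular p M) {c : G}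
    (hc : ∃ k, orderOf c = p ^ k) {R : Subgroup G} (hR : IsPGroup p R)
    (hRc : R ≤ Subgroup.centralizer {c}) :
    (Nat.card R : ℝ) ≤ (∑ χ ∈ PB.pb M G, (χ : G → ℂ) c * (χ : G → ℂ) c⁻¹).re := by
  have h1 := PB.sum_mul_inv_eq (C := Subgroup.centralizer {c}) hM hc
    (fun g => Subgroup.mem_centralizer_singleton_iff) (y := 1) (y' := 1)
    (by simpa using hM.1.ne_one) (by simpa using hM.1.ne_one)
  simp only [OneMemClass.coe_one, mul_one, inv_one] at h1
  rw [h1, ← Nat.card_congr (Subgroup.subgroupOfEquivOfLe hRc).toEquiv]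
  exact deg_sq_ge hM (hR.comap_subtype)

theorem sum_tS_sq [Finite G] [Fact p.Prime] (hM : IsPModular p M) {V : Subgroup G} [Fintype V]
    (hV : IsPGroup p V)
    (hN : ∀ c ∈ V, c ≠ 1 → ((∃ c' ∈ V, c' ≠ c ∧ IsConj c c') ∧ V ≤ Subgroup.centralizer {c}) ∨
      ∃ R : Subgroup G, IsPGroup p R ∧ R ≤ Subgroup.centralizer {c} ∧
        2 * Nat.card V ≤ Nat.card R) :
    2 * (Nat.card V : ℝ) * (Nat.card V - 1) ≤ ∑ χ ∈ PB.pb M G, (tS V (χ : G → ℂ)).re ^ 2 := by
  classical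
  let E : Finset V := Finset.univ.erase 1
  let F : G → G → ℝ := fun c c' => (∑ χ ∈ PB.pb M G, (χ : G → ℂ) c * (χ : G → ℂ) c'⁻¹).re
  have h1 : ∑ χ ∈ PB.pb M G, (tS V (χ : G → ℂ)).re ^ 2 = ∑ c ∈ E, ∑ c' ∈ E, F c c' := by
    have : ∀ χ ∈ PB.pb M G, (tS V (χ : G → ℂ)).re ^ 2 =
        ∑ c ∈ E, ∑ c' ∈ E, ((χ : G → ℂ) c * (χ : G → ℂ) (c' : G)⁻¹).re := by
      intro χ _
      have e : tS V (χ : G → ℂ) * tS V (fun g => (χ : G → ℂ) g⁻¹) =
          ∑ c ∈ E, ∑ c' ∈ E, (χ : G → ℂ) c * (χ : G → ℂ) (c' : G)⁻¹ := by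
        rw [tS, tS, Finset.sum_mul_sum]
      rw [tS_inv, tS_real V χ.isCharacter, ← Complex.ofReal_mul] at e
      have := congrArg Complex.re e
      rw [Complex.ofReal_re] at this
      rw [sq, this]
      simp only [Complex.re_sum]
    rw [Finset.sum_congr rfl this, Finset.sum_comm]
    refine Finset.sum_congr rfl fun c _ => ?_
    rw [Finset.sum_comm]
    refine Finset.sum_congr rfl fun c' _ => ?_
    simp only [F, Complex.re_sum]
  have hconj : ∀ c c' : G, IsConj c c' → F c c' = F c c := by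
    intro c c' h
    simp only [F]
    congr 1
    refine Finset.sum_congr rfl fun χ _ => ?_
    rw [χ.isCharacter.apply_inv, χ.isCharacter.apply_inv, χ.isClassFunction.eq_of_isConj h]
  have hcc : ∀ c : V, (Nat.card (⊥ : Subgroup G) : ℝ) ≤ F c c := fun c =>
    norm_ge hM (ord_of_mem hV c.2) IsPGroup.of_bot bot_le
  have hnn : ∀ c c' : V, 0 ≤ F c c' := by
    intro c c'
    by_cases h : IsConj (c : G) c'
    · rw [hconj _ _ h]
      exact le_trans (Nat.cast_nonneg _) (hcc c)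
    · simp only [F]
      rw [PB.sum_mul_inv_eq_zero hM (isPPart_self (ord_of_mem hV c.2))
        (isPPart_self (ord_of_mem hV c'.2)) h]
      simp
  have h2 : ∀ c ∈ E, 2 * (Nat.card V : ℝ) ≤ ∑ c' ∈ E, F c c' := by
    intro c hc
    have hc1 : (c : G) ≠ 1 := by simpa [E] using hc
    rcases hN c c.2 hc1 with ⟨⟨c', hc', hne, hcj⟩, hle⟩ | ⟨R, hR, hle, hcard⟩
    · have hc'1 : c' ≠ 1 := by
        rintro rfl
        exact hc1 (isConj_one_left.1 hcj)
      have hm : (⟨c', hc'⟩ : V) ∈ E := by simpa [E] using hc'1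
      have h3 := Finset.add_le_sum (f := fun c' : V => F c c') (fun c' _ => hnn c c') hc hm
        (fun h => hne (congrArg Subtype.val h).symm)
      have h4 := norm_ge hM (ord_of_mem hV c.2) hV hle
      simp only [hconj _ _ hcj] at h3
      change _ ≤ F c c at h4
      linarith
    · have h3 := Finset.single_le_sum (f := fun c' : V => F c c') (fun c' _ => hnn c c') hc
      have h4 := norm_ge hM (ord_of_mem hV c.2) hR hle
      change _ ≤ F c c at h4
      have h5 : 2 * (Nat.card V : ℝ) ≤ Nat.card R := by exact_mod_cast hcard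
      linarith
  rw [h1]
  refine le_trans (le_of_eq ?_) (Finset.sum_le_sum h2)
  have : E.card = Nat.card V - 1 := by simp [E]
  have hV1 : 1 ≤ Nat.card V := Nat.card_pos
  rw [Finset.sum_const, this, nsmul_eq_mul, Nat.cast_sub hV1]
  push_cast
  ring

theorem eq_one_of_large [Finite G] [IsSimpleGroup G] {V : Subgroup G} [Fintype V]
    (hn : 2 ≤ Nat.card V) (χ : IrrCharacter G)
    (h : ((Nat.card V : ℝ) - 1) * charDegree (χ : G → ℂ) ≤ (tS V (χ : G → ℂ)).re) :
    χ = irrOne G := by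
  classical
  haveI := Fintype.ofFinite G
  let E : Finset V := Finset.univ.erase 1
  have hE : E.card = Nat.card V - 1 := by simp [E]
  have hV1 : 1 ≤ Nat.card V := Nat.card_pos
  have h1 : ∑ c ∈ E, (((χ : G → ℂ) 1).re - ((χ : G → ℂ) c).re) = 0 := by
    refine le_antisymm ?_ (Finset.sum_nonneg fun c _ => sub_nonneg.2 (χ.isCharacter.re_le _))
    rw [Finset.sum_sub_distrib, Finset.sum_const, hE, nsmul_eq_mul, Nat.cast_sub hV1,
      χ.isCharacter.re_apply_one, ← Complex.re_sum]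
    have : ∑ c ∈ E, (χ : G → ℂ) c = tS V (χ : G → ℂ) := by rw [tS]
    rw [this]
    push_cast
    linarith
  rw [Finset.sum_eq_zero_iff_of_nonneg fun c _ => sub_nonneg.2 (χ.isCharacter.re_le _)] at h1
  obtain ⟨c, hc⟩ : E.Nonempty := Finset.card_pos.1 (by omega)
  have hc1 : (c : G) ≠ 1 := by simpa [E] using hc
  have hk : (c : G) ∈ charKer (χ : G → ℂ) :=
    χ.isCharacter.mem_charKer.2 (χ.isCharacter.eq_apply_one_of_re_eq (by linarith [h1 c hc]))
  have htop : charKer (χ : G → ℂ) = ⊤ := by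
    rcases χ.isCharacter.charKer_normal.eq_bot_or_eq_top with h0 | h0
    · rw [h0] at hk; exact absurd hk hc1
    · exact h0
  rw [χ.isCharacter.charKer_eq_top_iff] at htop
  by_contra hne
  have h2 := χ.2.sum_eq_zero (fun h0 => hne (Subtype.ext h0))
  rw [Finset.sum_congr rfl fun g _ => htop g] at h2
  simp [χ.2.apply_one_ne_zero] at h2

theorem char_contra [Finite G] [IsSimpleGroup G] [hp : Fact p.Prime] {V : Subgroup G}
    (hV : IsPGroup p V) (hn : 3 ≤ Nat.card V)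
    (hK : ∀ g : G, ∃ K : Subgroup G, (Nat.card K).Coprime p ∧
      V ≤ Subgroup.normalizer (K : Set G) ∧ (∀ b ∈ V, ∃ v ∈ V, v⁻¹ * (g * b * g⁻¹) ∈ K) ∧
      ∀ u ∈ V, u ≠ 1 → ∀ o ∈ K, ∃ v ∈ centralizerPPrimeCore p u, IsConj (u * o) (u * v))
    (hN : ∀ c ∈ V, c ≠ 1 → ((∃ c' ∈ V, c' ≠ c ∧ IsConj c c') ∧ V ≤ Subgroup.centralizer {c}) ∨
      ∃ R : Subgroup G, IsPGroup p R ∧ R ≤ Subgroup.centralizer {c} ∧
        2 * Nat.card V ≤ Nat.card R) : False := by
  classical
  haveI := Fintype.ofFinite G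
  obtain ⟨M, hM⟩ := exists_isPModular hp.out
  have hG : (0 : ℝ) < Nat.card G := by exact_mod_cast Nat.card_pos
  have hG' : (Nat.card G : ℂ) ≠ 0 := by exact_mod_cast (Nat.card_pos (α := G)).ne'
  choose K hKc hKn hKk hKv using hK
  have hval : ∀ g, ∀ χ ∈ PB.pb M G, ∀ u ∈ V, u ≠ 1 → ∀ o ∈ K g,
      (χ : G → ℂ) (u * o) = (χ : G → ℂ) u := by
    intro g χ hχ u hu h1 o ho
    obtain ⟨v, hv, hc⟩ := hKv g u hu h1 o ho
    rw [χ.isClassFunction.eq_of_isConj hc]
    exact S0942.result p M hM u (ord_of_mem hV hu) v hv χ (PB.mem_pb.1 hχ)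
  have hreg : ∀ o : G, ¬ p ∣ orderOf o →
      ∑ χ ∈ PB.pb M G, tS V (χ : G → ℂ) * (χ : G → ℂ) o = 0 := by
    intro o ho
    simp only [tS, Finset.sum_mul]
    rw [Finset.sum_comm]
    refine Finset.sum_eq_zero fun c hc => ?_
    rw [← PB.sum_mul_eq_zero_of_regular hM ho (dvd_ord_of_mem hV c.2 (by simpa using hc))]
    exact Finset.sum_congr rfl fun χ _ => mul_comm _ _
  have hdis : ∀ g, V ⊓ K g = ⊥ := by
    intro g
    obtain ⟨k, hk⟩ := IsPGroup.iff_card.1 hV
    exact Subgroup.inf_eq_bot_of_coprime (hk ▸ (hKc g).symm.pow_left k)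
  have hA : ∀ g, ∑ χ ∈ PB.pb M G, tS V (χ : G → ℂ) * aS V (χ : G → ℂ) g =
      Nat.card V * ∑ χ ∈ PB.pb M G, tS V (χ : G → ℂ) ^ 2 := by
    intro g
    choose v hv hk using fun b : V => hKk g b b.2
    rw [Finset.sum_congr rfl fun χ hχ => by rw [aS_eq V (K g) χ g v hv hk (hval g χ hχ)]]
    simp only [mul_add, Finset.sum_add_distrib, Finset.mul_sum]
    rw [Finset.sum_comm (s := PB.pb M G), Finset.sum_eq_zero (s := Finset.univ) fun b _ =>
      hreg _ fun hd => ?_, add_zero]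
    · exact Finset.sum_congr rfl fun χ _ => by ring
    · have := hd.trans (Subgroup.orderOf_dvd_natCard _ (hk b))
      exact hp.out.ne_one (Nat.Coprime.eq_one_of_dvd (hKc g).symm this)
  have hre : ∀ χ : IrrCharacter G, ∑ g, aS V (χ : G → ℂ) g =
      ((Nat.card G * (((tS V (χ : G → ℂ)).re + charDegree (χ : G → ℂ)) ^ 2 /
        charDegree (χ : G → ℂ)) : ℝ) : ℂ) := by
    intro χ
    rw [sum_aS χ.2, ← χ.2.coe_charDegree]
    conv_lhs => rw [tS_real V χ.isCharacter]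
    push_cast
    ring
  refine num_contra (PB.pb M G) (irrOne G) (PB.one_mem_pb hM) (fun χ => (tS V (χ : G → ℂ)).re)
    (fun χ => charDegree (χ : G → ℂ)) (Nat.card V) (by exact_mod_cast hn)
    (fun χ _ => by exact_mod_cast χ.2.charDegree_pos) ?_ (by simp) ?_ ?_ ?_
    (sum_tS_sq hM hV hN)
  · have := sum_eq_tS V (irrOne G : G → ℂ)
    simp only [coe_irrOne, Finset.sum_const, Finset.card_univ, nsmul_eq_mul, mul_one] at this
    have := congrArg Complex.re this
    simp only [coe_irrOne, Nat.card_eq_fintype_card]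
    simp at this
    linarith
  · have := congrArg Complex.re (hreg 1 (by simpa using hp.out.ne_one))
    rw [Complex.re_sum, Complex.zero_re] at this
    rw [← this]
    refine Finset.sum_congr rfl fun χ _ => ?_
    rw [← χ.2.coe_charDegree, mul_comm (tS V _), re_nat_mul, mul_comm]
  · have h1 : ∑ g, ∑ χ ∈ PB.pb M G, tS V (χ : G → ℂ) * aS V (χ : G → ℂ) g =
        Nat.card G * (Nat.card V * ∑ χ ∈ PB.pb M G, tS V (χ : G → ℂ) ^ 2) := by
      simp [hA]
    rw [Finset.sum_comm] at h1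
    simp only [← Finset.mul_sum, hre] at h1
    rw [Finset.sum_congr rfl fun χ _ => by rw [tS_real V χ.isCharacter, Complex.ofReal_re],
      Finset.sum_congr (s₁ := PB.pb M G) (f := fun χ => tS V (χ : G → ℂ) ^ 2) rfl fun χ _ => by
        rw [tS_real V χ.isCharacter]] at h1
    have h2 : ∑ χ ∈ PB.pb M G, (tS V (χ : G → ℂ)).re * (Nat.card G * (((tS V (χ : G → ℂ)).re +
        charDegree (χ : G → ℂ)) ^ 2 / charDegree (χ : G → ℂ))) =
        Nat.card G * (Nat.card V * ∑ χ ∈ PB.pb M G, (tS V (χ : G → ℂ)).re ^ 2) := by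
      exact_mod_cast h1
    refine mul_left_cancel₀ hG.ne' ?_
    rw [← h2, Finset.mul_sum]
    exact Finset.sum_congr rfl fun χ _ => by ring
  · intro χ hχ hne
    by_contra hlt
    push Not at hlt
    refine hne (eq_one_of_large (V := V) (by omega) χ ?_)
    have h1 : ∑ _g : G, (Nat.card V : ℝ) ^ 2 * (tS V (χ : G → ℂ)).re ≤
        ∑ g, ((Nat.card V : ℝ) - 1) * (aS V (χ : G → ℂ) g).re :=
      Finset.sum_le_sum fun g _ => aS_ineq χ.2 V (K g) g (hKn g) (hdis g) (hKk g) (hval g χ hχ)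
    rw [← Finset.mul_sum (s := Finset.univ) (f := fun g => (aS V (χ : G → ℂ) g).re),
      ← Complex.re_sum, hre, Complex.ofReal_re, Finset.sum_const, Finset.card_univ, nsmul_eq_mul,
      ← Nat.card_eq_fintype_card] at h1
    have hd : (0 : ℝ) < charDegree (χ : G → ℂ) := by exact_mod_cast χ.2.charDegree_pos
    generalize (Nat.card V : ℝ) = n at *
    generalize (tS V (χ : G → ℂ)).re = T at *
    generalize (charDegree (χ : G → ℂ) : ℝ) = d at *
    have h2 : n ^ 2 * T ≤ (n - 1) * ((T + d) ^ 2 / d) := by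
      refine le_of_mul_le_mul_left ?_ hG
      linarith
    have h3 : n ^ 2 * T * d ≤ (n - 1) * (T + d) ^ 2 := by
      have := mul_le_mul_of_nonneg_right h2 hd.le
      rwa [mul_assoc (n - 1), div_mul_cancel₀ _ hd.ne'] at this
    have h4 : 0 ≤ ((n - 1) * T - d) * (T - (n - 1) * d) := by linarith
    have := (mul_nonneg_iff_of_pos_left (sub_pos.2 hlt)).1 h4
    linarith

end Cfsg.Agent.PS2
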