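import Cfsg.Agent.PS2.Psd
import Cfsg.Agent.S0942

/-! The character-theoretic half of S3019. -/

set_option autoImplicit false

open Cfsg ComplexConjugate Cfsg.Agent.Ch Cfsg.Agent.Blk

namespace Cfsg.Agent.PS2

variable {G : Type*} [Group G]

open Classical in
/-- The sum of `χ` over the non-identity elements of `V`. -/
noncomputable def tS (V : Subgroup G) [Fintype V] (χ : G → ℂ) : ℂ :=
  ∑ c ∈ (Finset.univ : Finset V).erase 1, χ c

theorem sum_eq_tS (V : Subgroup G) [Fintype V] (χ : G → ℂ) : ∑ c : V, χ c = tS V χ + χ 1 := by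
  classical
  rw [tS, ← Finset.sum_erase_add _ _ (Finset.mem_univ (1 : V))]
  congr

theorem tS_inv (V : Subgroup G) [Fintype V] (χ : G → ℂ) :
    tS V (fun g => χ g⁻¹) = tS V χ := by
  have h1 := sum_eq_tS V (fun g => χ g⁻¹)
  have h2 := sum_eq_tS V χ
  have h3 : ∑ c : V, χ (c : G)⁻¹ = ∑ c : V, χ c :=
    Fintype.sum_equiv (Equiv.inv V) _ _ (fun _ => rfl)
  simp only [inv_one] at h1
  rw [h3, h2] at h1
  exact (add_right_cancel h1).symm

theorem tS_real [Finite G] (V : Subgroup G) [Fintype V] {χ : G → ℂ} (h : IsCharacter G χ) :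
    tS V χ = ((tS V χ).re : ℂ) := by
  refine (Complex.conj_eq_iff_re.1 ?_).symm
  rw [← tS_inv V χ]
  conv_lhs => rw [tS_inv V χ]
  simp only [tS, map_sum, h.conj_apply]

theorem sum_mul_o (V : Subgroup G) [Fintype V] (χ : G → ℂ) {o : G}
    (hv : ∀ u ∈ V, u ≠ 1 → χ (u * o) = χ u) : ∑ c : V, χ (c * o) = tS V χ + χ o := by
  classical
  rw [sum_eq_tS V (fun g => χ (g * o)), one_mul]
  congr 1
  refine Finset.sum_congr rfl fun c hc => hv c c.2 ?_
  simpa using hc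

/-- The double sum `A_g`. -/
noncomputable def aS (V : Subgroup G) [Fintype V] (χ : G → ℂ) (g : G) : ℂ :=
  ∑ a : V, ∑ b : V, χ (a * (g * b * g⁻¹))

theorem aS_eq (V K : Subgroup G) [Fintype V] (χ : G → ℂ) (g : G) (v : V → G)
    (hv : ∀ b, v b ∈ V) (hk : ∀ b : V, (v b)⁻¹ * (g * b * g⁻¹) ∈ K)
    (hval : ∀ u ∈ V, u ≠ 1 → ∀ o ∈ K, χ (u * o) = χ u) :
    aS V χ g = Nat.card V * tS V χ + ∑ b : V, χ ((v b)⁻¹ * (g * b * g⁻¹)) := by
  rw [aS, Finset.sum_comm]
  have : ∀ b : V, ∑ a : V, χ (a * (g * b * g⁻¹)) = tS V χ + χ ((v b)⁻¹ * (g * b * g⁻¹)) := by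
    intro b
    rw [← sum_mul_o V χ (fun u hu h1 => hval u hu h1 _ (hk b))]
    refine Fintype.sum_equiv (Equiv.mulRight (⟨v b, hv b⟩ : V)) _ _ (fun a => ?_)
    simp [mul_assoc]
  simp_rw [this]
  rw [Finset.sum_add_distrib]
  simp

theorem aS_ineq [Fintype G] {χ : G → ℂ} (h : IsIrrCharacter G χ) (V K : Subgroup G) [Fintype V]
    (g : G) (hn : V ≤ Subgroup.normalizer (K : Set G)) (hd : V ⊓ K = ⊥)
    (hk : ∀ b ∈ V, ∃ v ∈ V, v⁻¹ * (g * b * g⁻¹) ∈ K)
    (hval : ∀ u ∈ V, u ≠ 1 → ∀ o ∈ K, χ (u * o) = χ u) :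
    (Nat.card V : ℝ) ^ 2 * (tS V χ).re ≤ (Nat.card V - 1) * (aS V χ g).re := by
  classical
  let φ : V × K → (V ⊔ K : Subgroup G) := fun x =>
    ⟨x.1 * x.2, Subgroup.mul_mem_sup x.1.2 x.2.2⟩
  have hφ : Function.Bijective φ := by
    constructor
    · rintro ⟨c, o⟩ ⟨c', o'⟩ he
      have he' : (c : G) * o = c' * o' := congrArg Subtype.val he
      have h1 : (c' : G)⁻¹ * c = o' * (o : G)⁻¹ := by
        rw [inv_mul_eq_iff_eq_mul, ← mul_assoc, ← he', mul_inv_cancel_right]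
      have h2 : (c' : G)⁻¹ * c ∈ V ⊓ K :=
        ⟨V.mul_mem (V.inv_mem c'.2) c.2, h1 ▸ K.mul_mem o'.2 (K.inv_mem o.2)⟩
      rw [hd, Subgroup.mem_bot, inv_mul_eq_one] at h2
      have h3 : c = c' := Subtype.ext h2.symm
      subst h3
      have h4 : o = o' := Subtype.ext (mul_left_cancel he')
      rw [h4]
    · rintro ⟨x, hx⟩
      have : x ∈ ((V ⊔ K : Subgroup G) : Set G) := hx
      rw [Subgroup.coe_mul_of_left_le_normalizer_right V K hn] at this
      obtain ⟨c, hc, o, ho, rfl⟩ := this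
      exact ⟨(⟨c, hc⟩, ⟨o, ho⟩), rfl⟩
  have hcard : (Nat.card (V ⊔ K : Subgroup G) : ℝ) = Nat.card V * Nat.card K := by
    rw [← Nat.card_eq_of_bijective φ hφ, Nat.card_prod]; push_cast; ring
  have hσ : ∑ k : (V ⊔ K : Subgroup G), χ k = Nat.card K * tS V χ + ∑ o : K, χ o := by
    rw [← Fintype.sum_bijective φ hφ (fun x => χ (x.1 * x.2)) (fun k => χ k) (fun _ => rfl),
      Fintype.sum_prod_type_right]
    rw [Finset.sum_congr rfl fun (o : K) _ =>
      sum_mul_o V χ (fun u hu h1 => hval u hu h1 _ o.2), Finset.sum_add_distrib]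
    simp
  have h1 := psd_sub h (V ⊔ K) (ι := K) (fun k => (k : G)) (fun k => Subgroup.mem_sup_right k.2)
  have e1 : ∑ k : K, ∑ l : K, χ ((k : G)⁻¹ * l) = Nat.card K * ∑ k : K, χ k := by
    rw [Finset.sum_congr rfl fun k _ => sum_sub_mul K χ (K.inv_mem k.2)]
    simp
  have h2 := psd_sub h (V ⊔ K) (ι := V × V) (fun x => x.1 * (g * x.2 * g⁻¹)) (fun x => by
    obtain ⟨v, hv, hvk⟩ := hk x.2 x.2.2
    have : (x.1 : G) * (g * x.2 * g⁻¹) = (x.1 * v) * (v⁻¹ * (g * x.2 * g⁻¹)) := by group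
    rw [this]
    exact Subgroup.mul_mem_sup (V.mul_mem x.1.2 hv) hvk)
  have e2 : ∑ x : V × V, ∑ y : V × V,
      χ (((x.1 : G) * (g * x.2 * g⁻¹))⁻¹ * (y.1 * (g * y.2 * g⁻¹))) =
      (Nat.card V * Nat.card V : ℕ) * aS V χ g := by
    have : ∀ x : V × V, ∑ y : V × V,
        χ (((x.1 : G) * (g * x.2 * g⁻¹))⁻¹ * (y.1 * (g * y.2 * g⁻¹))) = aS V χ g := by
      intro x
      rw [aS, ← Fintype.sum_prod_type' (fun a b : V => χ (a * (g * b * g⁻¹)))]
      refine Fintype.sum_equiv ((Equiv.mulLeft x.1⁻¹).prodCongr (Equiv.mulRight x.2⁻¹)) _ _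
        (fun y => ?_)
      have e : ((x.1 : G) * (g * x.2 * g⁻¹))⁻¹ * (y.1 * (g * y.2 * g⁻¹)) =
          (g * (x.2 : G)⁻¹ * g⁻¹) * ((x.1 : G)⁻¹ * y.1 * (g * y.2 * g⁻¹)) := by group
      rw [e, h.isClassFunction.mul_comm]
      congr 1
      simp only [Equiv.prodCongr_apply, Prod.map_fst, Prod.map_snd, Equiv.coe_mulLeft,
        Equiv.coe_mulRight, Subgroup.coe_mul, Subgroup.coe_inv]
      group
    simp_rw [this]
    simp
  rw [e1, re_nat_mul, hcard, hσ, Complex.add_re, re_nat_mul, ← Nat.card_eq_fintype_card] at h1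
  rw [e2, re_nat_mul, hcard, hσ, Complex.add_re, re_nat_mul, ← Nat.card_eq_fintype_card,
    Nat.card_prod] at h2
  have hK : (0 : ℝ) < Nat.card K := by exact_mod_cast Nat.card_pos
  have hV : (1 : ℝ) ≤ Nat.card V := by exact_mod_cast Nat.card_pos
  push_cast at h2
  generalize (Nat.card V : ℝ) = n at *
  generalize (Nat.card K : ℝ) = k at *
  generalize (tS V χ).re = T at *
  generalize (∑ o : K, χ o).re = s at *
  generalize (aS V χ g).re = A at *
  have hn0 : 0 < n := by linarith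
  have h1' : k * T + s ≤ n * s := by
    have : k ^ 2 * (k * T + s) ≤ k ^ 2 * (n * s) := by linarith
    exact le_of_mul_le_mul_left this (by positivity)
  have h2' : n * (k * T + s) ≤ k * A := by
    have : n ^ 3 * (n * (k * T + s)) ≤ n ^ 3 * (k * A) := by linarith
    exact le_of_mul_le_mul_left this (by positivity)
  have h3 : k * (n ^ 2 * T) ≤ k * ((n - 1) * A) := by
    have := mul_le_mul_of_nonneg_left h2' (sub_nonneg.2 hV)
    nlinarith [mul_le_mul_of_nonneg_left h1' hn0.le]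
  exact le_of_mul_le_mul_left h3 hK

theorem sum_aS [Fintype G] {χ : G → ℂ} (h : IsIrrCharacter G χ) (V : Subgroup G) [Fintype V] :
    ∑ g, aS V χ g = Nat.card G * (tS V χ + χ 1) ^ 2 / χ 1 := by
  simp only [aS]
  rw [Finset.sum_comm, ← sum_eq_tS, sq, Finset.sum_mul_sum, Finset.mul_sum, Finset.sum_div]
  refine Finset.sum_congr rfl fun a _ => ?_
  rw [Finset.sum_comm, Finset.mul_sum, Finset.sum_div]
  refine Finset.sum_congr rfl fun b _ => ?_
  rw [Finset.sum_congr rfl fun g _ => h.isClassFunction.mul_comm (a : G) (g * b * g⁻¹),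
    classMult_sum_conj_mul h]
  ring

theorem num_contra {ι : Type*} (B : Finset ι) (o : ι) (ho : o ∈ B) (τ δ : ι → ℝ) (n : ℝ)
    (hn : 3 ≤ n) (hδ : ∀ i ∈ B, 0 < δ i) (hτo : τ o = n - 1) (hδo : δ o = 1)
    (h1 : ∑ i ∈ B, τ i * δ i = 0) (h2 : ∑ i ∈ B, τ i * ((τ i + δ i) ^ 2 / δ i) = n * ∑ i ∈ B, τ i ^ 2)
    (h3 : ∀ i ∈ B, i ≠ o → (n - 1) * τ i ≤ δ i) (h4 : 2 * n * (n - 1) ≤ ∑ i ∈ B, τ i ^ 2) :
    False := by
  classical
  let F : ι → ℝ := fun i => τ i ^ 2 * ((n - 1) * τ i - δ i) / δ i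
  have hF : ∑ i ∈ B, F i = ((n - 1) * (n - 2) - 1) * ∑ i ∈ B, τ i ^ 2 := by
    have : ∀ i ∈ B, F i = (n - 1) * (τ i * ((τ i + δ i) ^ 2 / δ i)) - (n - 1) * (τ i * δ i) -
        (2 * (n - 1) + 1) * τ i ^ 2 := by
      intro i hi
      have := (hδ i hi).ne'
      simp only [F]
      field_simp
      ring
    rw [Finset.sum_congr rfl this, Finset.sum_sub_distrib, Finset.sum_sub_distrib,
      ← Finset.mul_sum, ← Finset.mul_sum, ← Finset.mul_sum, h1, h2]
    ring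
  obtain ⟨j, hj, hjn⟩ : ∃ j ∈ B.erase o, τ j < 0 := by
    by_contra hc
    push Not at hc
    rw [← Finset.sum_erase_add _ _ ho, hτo, hδo] at h1
    have : 0 ≤ ∑ i ∈ B.erase o, τ i * δ i :=
      Finset.sum_nonneg fun i hi => mul_nonneg (hc i hi) (hδ i (Finset.mem_of_mem_erase hi)).le
    linarith
  have hneg : ∑ i ∈ B.erase o, F i < ∑ i ∈ B.erase o, (0 : ℝ) := by
    refine Finset.sum_lt_sum (fun i hi => ?_) ⟨j, hj, ?_⟩
    · have hi' := Finset.mem_of_mem_erase hi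
      exact div_nonpos_of_nonpos_of_nonneg (mul_nonpos_of_nonneg_of_nonpos (sq_nonneg _)
        (sub_nonpos.2 (h3 i hi' (Finset.ne_of_mem_erase hi)))) (hδ i hi').le
    · have hj' := Finset.mem_of_mem_erase hj
      refine div_neg_of_neg_of_pos (mul_neg_of_pos_of_neg (sq_pos_of_neg hjn) ?_) (hδ j hj')
      have := hδ j hj'
      nlinarith
  rw [Finset.sum_const_zero] at hneg
  rw [← Finset.sum_erase_add _ _ ho] at hF
  have hFo : F o = (n - 1) ^ 2 * ((n - 1) * (n - 1) - 1) := by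
    simp only [F, hτo, hδo, div_one]
  have hc : 0 ≤ (n - 1) * (n - 2) - 1 := by nlinarith
  have := mul_le_mul_of_nonneg_left h4 hc
  rw [hFo] at hF
  have h5 : ((n - 1) * (n - 2) - 1) * (2 * n * (n - 1)) < (n - 1) ^ 2 * ((n - 1) * (n - 1) - 1) := by
    linarith
  have h6 : 0 < (n - 1) * n := mul_pos (by linarith) (by linarith)
  have h7 : (n - 1) * n * (2 * ((n - 1) * (n - 2) - 1)) < (n - 1) * n * ((n - 1) * (n - 2)) := by
    linarith
  have h8 := lt_of_mul_lt_mul_left h7 h6.le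
  nlinarith

end Cfsg.Agent.PS2
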