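import Cfsg.Agent.PS2.Bar

/-! `p`-central elements when pairs of Sylow subgroups generate `p`-solvable groups. -/

set_option autoImplicit false

namespace Cfsg.Agent.PS2

open Cfsg Cfsg.Agent.GT Cfsg.Agent.Loc.Mss Subgroup
open scoped commutatorElement

variable {G : Type*} [Group G] {p : ℕ}

/-- Any two Sylow `p`-subgroups generate a `p`-solvable group. -/
def Pairs (p : ℕ) (G : Type*) [Group G] : Prop :=
  ∀ P Q : Subgroup G, Syl p P ⊤ → Syl p Q ⊤ → IsPSolvable p ↥(P ⊔ Q)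

/-- `x` is central in some Sylow `p`-subgroup. -/
def Dc (p : ℕ) (x : G) : Prop := ∃ P : Subgroup G, Syl p P ⊤ ∧ x ∈ P ∧ x ∈ 𝐂[P]

/-- The subgroup generated by the `p`-central elements in `P`. -/
def Vc (p : ℕ) (P : Subgroup G) : Subgroup G := closure {x | Dc p x ∧ x ∈ P}

theorem Dc.pe {x : G} (h : Dc p x) : PE p x := by
  obtain ⟨P, hP, hx, -⟩ := h
  exact PE.of_mem hP.pg hx

theorem Dc.conj {x : G} (h : Dc p x) (g : G) : Dc p (g * x * g⁻¹) := by
  obtain ⟨P, hP, hx, hc⟩ := h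
  exact ⟨cj(g, P), hP.cj_mem (mem_top g), conj_mem_cj hx, cj_cent P g ▸ conj_mem_cj hc⟩

theorem Vc_le (P : Subgroup G) : Vc p P ≤ P := (closure_le _).2 fun _ hx => hx.2

theorem mem_Vc {P : Subgroup G} {x : G} (h : Dc p x) (hx : x ∈ P) : x ∈ Vc p P :=
  subset_closure ⟨h, hx⟩

theorem norm_Vc (P : Subgroup G) : 𝐍[P] ≤ 𝐍[Vc p P] := by
  refine norm_of_forall_cj_le fun g hg => ?_
  rw [Vc, MonoidHom.map_closure, closure_le]
  rintro _ ⟨x, hx, rfl⟩
  exact mem_Vc (hx.1.conj g) (conj_mem_of_norm hg hx.2)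

variable [Finite G] [hp : Fact p.Prime]

theorem Dc.exists_syl {x : G} (h : Dc p x) {T : Subgroup G} (hT : IsPGroup p T)
    (hc : T ≤ centralizer {x}) : ∃ P, Syl p P ⊤ ∧ T ≤ P ∧ x ∈ P ∧ x ∈ 𝐂[P] := by
  obtain ⟨P, hP, hx, hcx⟩ := h
  have h1 : P ≤ centralizer {x} := fun y hy =>
    mem_centralizer_singleton_iff.2 (mem_cent.1 hcx y hy)
  obtain ⟨g, hg, hle⟩ := (hP.mono h1 le_top).le_conj hT hc
  have e : g * x * g⁻¹ = x := by rw [mem_centralizer_singleton_iff.1 hg]; group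
  exact ⟨cj(g, P), hP.cj_mem (mem_top g), hle, e ▸ conj_mem_cj hx,
    cj_cent P g ▸ e ▸ conj_mem_cj hcx⟩

theorem bar_cent_core {H P : Subgroup G} (hP : Syl p P ⊤) (hle : P ≤ H) {a : G} (ha : a ∈ P)
    (hc : a ∈ 𝐂[P]) : bar p H a ∈ centralizer (pCore p (Qt p H) : Set (Qt p H)) := by
  refine mem_centralizer_iff.2 fun q hq => ?_
  obtain ⟨v, hv, rfl⟩ := core_lift (hP.mono hle le_top) hq
  rw [← bar_mul (hle hv) (hle ha), ← bar_mul (hle ha) (hle hv), mem_cent.1 hc v hv]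

theorem comm_mem_core (h : Pairs p G) {P Q : Subgroup G} (hP : Syl p P ⊤) (hQ : Syl p Q ⊤)
    {a b : G} (ha : a ∈ P) (hac : a ∈ 𝐂[P]) (hb : b ∈ Q) (hbc : b ∈ 𝐂[Q]) :
    ⁅a, b⁆ ∈ pPrimeCoreOf p (P ⊔ Q) := by
  have h1 := bar_cent_core (H := P ⊔ Q) hP le_sup_left ha hac
  have h2 := (h P Q hP hQ).charP_quotient (bar_cent_core (H := P ⊔ Q) hQ le_sup_right hb hbc)
  rw [← bar_eq_one (comm_mem (mem_sup_left ha) (mem_sup_right hb)),
    bar_comm (mem_sup_left ha) (mem_sup_right hb), commutatorElement_eq_one_iff_mul_comm]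
  exact (mem_centralizer_iff.1 h1 _ h2).symm

theorem Dc.comm (h : Pairs p G) {a b : G} (ha : Dc p a) (hb : Dc p b) {T : Subgroup G}
    (hT : IsPGroup p T) (haT : a ∈ T) (hbT : b ∈ T) : a * b = b * a := by
  obtain ⟨P, hP, ha1, ha2⟩ := ha
  obtain ⟨Q, hQ, hb1, hb2⟩ := hb
  exact commutatorElement_eq_one_iff_mul_comm.1 ((PE.of_mem hT (comm_mem haT hbT)).eq_one
    (RE.of_core (comm_mem_core h hP hQ ha1 ha2 hb1 hb2)))

theorem Vc_comm (h : Pairs p G) {T : Subgroup G} (hT : IsPGroup p T) : Vc p T ≤ 𝐂[Vc p T] :=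
  closure_le_cent fun _ hx _ hy => hx.1.comm h hy.1 hT hx.2 hy.2

omit hp in
theorem bar_comm_eq_one {H K : Subgroup G} (hK : (Nat.card K).Coprime p) {w x : G} (hw : w ∈ H)
    (hx : x ∈ H) (hwn : w ∈ 𝐍[K]) (hxK : x ∈ K) (hq : bar p H w ∈ pCore p (Qt p H)) :
    bar p H x * bar p H w = bar p H w * bar p H x := by
  have hQ : (pCore p (Qt p H)).Normal := inferInstance
  have h1 : ⁅w, x⁆ ∈ K := mul_mem (conj_mem_of_norm hwn hxK) (inv_mem hxK)
  have h2 : bar p H ⁅w, x⁆ ∈ pCore p (Qt p H) := by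
    rw [bar_comm hw hx, commutatorElement_def, mul_assoc, mul_assoc, ← mul_assoc (bar p H x)]
    exact mul_mem hq (hQ.conj_mem _ (inv_mem hq) _)
  have h3 := (PE.of_mem (isPGroup_pCore p) h2).eq_one ((RE.of_mem hK h1).bar (comm_mem hw hx))
  rw [bar_comm hw hx] at h3
  exact (commutatorElement_eq_one_iff_mul_comm.1 h3).symm

theorem exists_good (h : Pairs p G) {H : Subgroup G} {a : G} (ha : Dc p a) (haH : a ∈ H) :
    ∃ P, Syl p P ⊤ ∧ a ∈ P ∧ a ∈ 𝐂[P] ∧ ∀ K : Subgroup G, (Nat.card K).Coprime p → P ≤ 𝐍[K] →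
      ∀ q ∈ pCore p (Qt p H), ⁅q, bar p H a⁆ ∈ 𝐂[bmap p H K] := by
  have hQ : (pCore p (Qt p H)).Normal := inferInstance
  obtain ⟨T, haT, hT⟩ := Syl.exists_ge ha.pe.pg (zpowers_le.2 haH)
  have haT' : a ∈ T := haT (mem_zpowers a)
  obtain ⟨P, hP, hle, haP, hac⟩ := ha.exists_syl (T := T ⊓ centralizer {a})
    (hT.pg.to_le inf_le_left) inf_le_right
  refine ⟨P, hP, haP, hac, fun K hK hn q hq => mem_cent.2 fun γ hγ => ?_⟩
  obtain ⟨x, hxK, hxH, rfl⟩ := mem_bmap.1 hγ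
  obtain ⟨v, hv, rfl⟩ := core_lift hT hq
  have hw : ⁅v, a⁆ ∈ T ⊓ centralizer {a} := by
    refine ⟨comm_mem hv haT', mem_centralizer_singleton_iff.2 ?_⟩
    have := (ha.conj v).comm h ha hT.pg (mul_mem (mul_mem hv haT') (inv_mem hv)) haT'
    rw [commutatorElement_def, inv_mul_cancel_right, ← mul_assoc, ← this, mul_inv_cancel_right]
  rw [← bar_comm (hT.le hv) haH]
  refine bar_comm_eq_one hK (hT.le hw.1) hxH (hn (hle hw)) hxK ?_
  rw [bar_comm (hT.le hv) haH, commutatorElement_def, mul_assoc, mul_assoc,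
    ← mul_assoc (bar p H a)]
  exact mul_mem hq (hQ.conj_mem _ (inv_mem hq) _)

theorem bar_commute (h : Pairs p G) {H : Subgroup G} (hH : IsPSolvable p H) {a b : G}
    (ha : Dc p a) (haH : a ∈ H) (hb : Dc p b) (hbH : b ∈ H) :
    bar p H a * bar p H b = bar p H b * bar p H a := by
  obtain ⟨P, hP, ha1, ha2, ha3⟩ := exists_good h ha haH
  obtain ⟨Q, hQ, hb1, hb2, hb3⟩ := exists_good h hb hbH
  have hK := coprime_card_pPrimeCoreOf p (P ⊔ Q)
  have hn := le_normalizer_pPrimeCoreOf (p := p) (P ⊔ Q)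
  have hab := comm_mem_core h hP hQ ha1 ha2 hb1 hb2
  refine commutatorElement_eq_one_iff_mul_comm.1 (abs_b hH.charP_quotient
    (Y := bmap p H (pPrimeCoreOf p (P ⊔ Q))) (bar_mem_norm haH (hn (mem_sup_left ha1)))
    (bar_mem_norm hbH (hn (mem_sup_right hb1))) (ha3 _ hK (le_sup_left.trans hn))
    (hb3 _ hK (le_sup_right.trans hn)) ?_ ?_)
  · exact mem_bmap.2 ⟨_, hab, comm_mem haH hbH, bar_comm haH hbH⟩
  · rw [← bar_comm haH hbH]
    exact (RE.of_core hab).bar (comm_mem haH hbH)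

theorem bar_mem_core (h : Pairs p G) {H : Subgroup G} (hH : IsPSolvable p H) {a : G}
    (ha : Dc p a) (haH : a ∈ H) : bar p H a ∈ pCore p (Qt p H) := by
  have key : ∀ x ∈ Group.conjugatesOfSet {bar p H a}, ∃ y ∈ H, Dc p y ∧ bar p H y = x := by
    intro x hx
    obtain ⟨y, hy, hc⟩ := Group.mem_conjugatesOfSet_iff.1 hx
    rw [Set.mem_singleton_iff.1 hy] at hc
    obtain ⟨c, rfl⟩ := isConj_iff.1 hc
    obtain ⟨g, hg, rfl⟩ := bar_surj c
    exact ⟨_, mul_mem (mul_mem hg haH) (inv_mem hg), ha.conj g, bar_conj hg haH⟩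
  have h1 : IsPGroup p (normalClosure {bar p H a}) := by
    refine pg_closure (fun x hx y hy => ?_) (fun x hx => ?_)
    · obtain ⟨x', hxH, hx', rfl⟩ := key x hx
      obtain ⟨y', hyH, hy', rfl⟩ := key y hy
      exact bar_commute h hH hx' hxH hy' hyH
    · obtain ⟨x', hxH, hx', rfl⟩ := key x hx
      exact hx'.pe.bar hxH
  exact le_pCore h1 (subset_normalClosure rfl)

theorem exists_rep (h : Pairs p G) {H T : Subgroup G} (hH : IsPSolvable p H) (hT : Syl p T H)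
    {g b : G} {A : Subgroup G} (hb : b ∈ Vc p A) (hle : cj(g, A) ≤ H) :
    ∃ v ∈ Vc p T, v⁻¹ * (g * b * g⁻¹) ∈ pPrimeCoreOf p H := by
  have hm : ∀ b ∈ Vc p A, g * b * g⁻¹ ∈ H := fun b hb => hle (conj_mem_cj (Vc_le A hb))
  have hv : ∀ v ∈ Vc p T, v ∈ H := fun v hv => hT.le (Vc_le T hv)
  suffices ∃ v ∈ Vc p T, bar p H v = bar p H (g * b * g⁻¹) by
    obtain ⟨v, hv1, hv2⟩ := this
    refine ⟨v, hv1, ?_⟩
    rw [← bar_eq_one (mul_mem (inv_mem (hv v hv1)) (hm b hb)),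
      bar_mul (inv_mem (hv v hv1)) (hm b hb), bar_inv (hv v hv1), hv2, inv_mul_cancel]
  induction hb using closure_induction with
  | mem x hx =>
    have hx' := hm x (mem_Vc hx.1 hx.2)
    obtain ⟨t, ht, e⟩ := core_lift hT (bar_mem_core h hH (hx.1.conj g) hx')
    obtain ⟨k, -, hk⟩ := conj_into hT hx' (hx.1.conj g).pe ht e
    exact ⟨t, mem_Vc (hk ▸ (hx.1.conj g).conj k) ht, e⟩
  | one => exact ⟨1, one_mem _, by simp⟩
  | mul x y hx hy h1 h2 =>
    obtain ⟨v, hv1, e1⟩ := h1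
    obtain ⟨w, hw1, e2⟩ := h2
    refine ⟨v * w, mul_mem hv1 hw1, ?_⟩
    rw [bar_mul (hv v hv1) (hv w hw1), e1, e2, ← bar_mul (hm x hx) (hm y hy)]
    congr 1
    group
  | inv x hx h1 =>
    obtain ⟨v, hv1, e1⟩ := h1
    refine ⟨v⁻¹, inv_mem hv1, ?_⟩
    rw [bar_inv (hv v hv1), e1, ← bar_inv (hm x hx)]
    congr 1
    group

theorem strongly_closed (h : Pairs p G) {P : Subgroup G} (hP : Syl p P ⊤) {g b : G}
    (hb : b ∈ Vc p P) (hg : g * b * g⁻¹ ∈ P) : g * b * g⁻¹ ∈ Vc p P := by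
  obtain ⟨v, hv, hk⟩ := exists_rep h (h P cj(g, P) hP (hP.cj_mem (mem_top g)))
    (hP.mono le_sup_left le_top) hb le_sup_right
  have := (PE.of_mem hP.pg (mul_mem (inv_mem (Vc_le P hv)) hg)).eq_one (RE.of_core hk)
  rwa [← inv_mul_eq_one.1 this]

theorem cent_le_core (h : Pairs p G) {P K : Subgroup G} (hP : Syl p P ⊤)
    (hK : (Nat.card K).Coprime p) (hn : P ≤ 𝐍[K]) {u : G} (hu : u ∈ Vc p P)
    (hC : IsPSolvable p (centralizer {u})) {x : G} (hx : x ∈ K) (hxu : x * u = u * x) :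
    x ∈ pPrimeCoreOf p (centralizer {u}) := by
  have hQ : (pCore p (Qt p (centralizer {u}))).Normal := inferInstance
  have hVc := Vc_comm h hP.pg
  have hcC : 𝐂[Vc p P] ≤ centralizer {u} := fun y hy =>
    mem_centralizer_singleton_iff.2 (mem_cent.1 hy u hu).symm
  have hVC : Vc p P ≤ centralizer {u} := hVc.trans hcC
  have hPN : P ≤ 𝐍[Vc p P] := le_normalizer.trans (norm_Vc P)
  have hR : Syl p (P ⊓ 𝐂[Vc p P]) 𝐂[Vc p P] :=
    (hP.mono hPN le_top).inf (cent_le_norm _) (norm_cent hPN)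
  obtain ⟨T, hRT, hT⟩ := Syl.exists_ge hR.pg (inf_le_right.trans hcC)
  have hVT : Vc p P ≤ T := (le_inf (Vc_le P) hVc).trans hRT
  have hxC : x ∈ centralizer {u} := mem_centralizer_singleton_iff.2 hxu
  have h0 : bmap p (centralizer {u}) K = ⊥ := by
    refine eq_bot_of_charP_of_centralizes hC.charP_quotient
      (P := bmap p (centralizer {u}) (Vc p P))
      (((hP.pg.to_le (Vc_le P)).comap_subtype).map _)
      (hK.coprime_dvd_left ((card_map_dvd _ _).trans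
        (card_comap_dvd_of_injective _ _ (subtype_injective _)))) ?_ ?_
    · intro γ hγ
      obtain ⟨y, hyK, hyC, rfl⟩ := mem_bmap.1 hγ
      refine mem_cent.2 fun δ hδ => ?_
      obtain ⟨v, hv, hvC, rfl⟩ := mem_bmap.1 hδ
      clear hvC hδ
      induction hv using closure_induction with
      | mem a ha =>
        have haC := hVC (mem_Vc ha.1 ha.2)
        have hyy := mul_mem (mul_mem hyC haC) (inv_mem hyC)
        have h1 := bar_commute h hC (ha.1.conj y) hyy ha.1 haC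
        have h2 : ⁅y, a⁆ ∈ K := by
          rw [commutatorElement_def, mul_assoc, mul_assoc, ← mul_assoc a]
          exact mul_mem hyK (conj_mem_of_norm (hn ha.2) (inv_mem hyK))
        have h3 : PE p (bar p (centralizer {u}) ⁅y, a⁆) := by
          rw [commutatorElement_def, bar_mul hyy (inv_mem haC), bar_inv haC]
          refine ((ha.1.conj y).pe.bar hyy).mul (ha.1.pe.bar haC).inv ?_
          exact ((show Commute _ _ from h1).inv_right)
        have h4 := h3.eq_one ((RE.of_mem hK h2).bar (comm_mem hyC haC))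
        rw [bar_comm hyC haC] at h4
        exact (commutatorElement_eq_one_iff_mul_comm.1 h4).symm
      | one => simp [bar_one]
      | mul a b ha hb h1 h2 =>
        rw [bar_mul (hVC ha) (hVC hb), mul_assoc, h2, ← mul_assoc, h1, mul_assoc]
      | inv a ha h1 =>
        rw [bar_inv (hVC ha)]
        exact (show Commute _ _ from h1).inv_left
    · rintro q ⟨hq, hqc⟩
      obtain ⟨t, ht, rfl⟩ := core_lift hT hq
      have htc : t ∈ 𝐂[Vc p P] := by
        refine mem_cent.2 fun v hv => ?_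
        refine eq_of_bar_eq hT.pg hT.le (mul_mem (hVT hv) ht) (mul_mem ht (hVT hv)) ?_
        rw [bar_mul (hVC hv) (hT.le ht), bar_mul (hT.le ht) (hVC hv)]
        exact mem_cent.1 hqc _ (mem_bmap.2 ⟨v, hv, hVC hv, rfl⟩)
      have htR := hR.ge_of_le (P := T ⊓ 𝐂[Vc p P]) (hT.pg.to_le inf_le_left)
        (le_inf hRT inf_le_right) inf_le_right ⟨ht, htc⟩
      refine mem_cent.2 fun γ hγ => ?_
      obtain ⟨y, hyK, hyC, rfl⟩ := mem_bmap.1 hγ
      exact bar_comm_eq_one hK (hT.le ht) hyC (hn htR.1) hyK hq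
  have : bar p (centralizer {u}) x ∈ bmap p (centralizer {u}) K := mem_bmap.2 ⟨x, hx, hxC, rfl⟩
  rw [h0, mem_bot] at this
  exact (bar_eq_one hxC).1 this

end Cfsg.Agent.PS2
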