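import Cfsg.Agent.PS2.Grp
import Cfsg.Agent.PS2.Blk
import Cfsg.Agent.GT.TransferAbelian
import Cfsg.Agent.GT.MinNormal
import Cfsg.Agent.GT.ThompsonFusionZJ
import Cfsg.Agent.S0215

/-! A finite group in which pairs of Sylow `p`-subgroups generate `p`-solvable subgroups is
`p`-solvable. -/

set_option autoImplicit false

namespace Cfsg.Agent.PS2

open Cfsg Cfsg.Agent.GT Cfsg.Agent.Loc.Mss Subgroup
open scoped commutatorElement

universe u

variable {G : Type*} [Group G] {p : ℕ} [Finite G] [hp : Fact p.Prime]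

theorem Pairs.sub (h : Pairs p G) (K : Subgroup G) : Pairs p K := by
  intro P Q hP hQ
  obtain ⟨P', hP1, hP2⟩ := Syl.exists_ge (hP.pg.map K.subtype) (le_top (a := P.map K.subtype))
  obtain ⟨Q', hQ1, hQ2⟩ := Syl.exists_ge (hQ.pg.map K.subtype) (le_top (a := Q.map K.subtype))
  have h1 : IsPSolvable p ((P ⊔ Q).map K.subtype) :=
    (h P' Q' hP2 hQ2).of_le (by rw [Subgroup.map_sup]; exact sup_le_sup hP1 hQ1)
  exact h1.of_mulEquiv (equivMapOfInjective _ _ (subtype_injective K)).symm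

theorem Pairs.quo (h : Pairs p G) (N : Subgroup G) [N.Normal] : Pairs p (G ⧸ N) := by
  have key : ∀ Q : Subgroup (G ⧸ N), Syl p Q ⊤ →
      ∃ P : Subgroup G, Syl p P ⊤ ∧ P.map (QuotientGroup.mk' N) = Q := by
    intro Q hQ
    obtain ⟨P, hP⟩ := Syl.exists p (⊤ : Subgroup G)
    have h1 := hP.map (QuotientGroup.mk' N)
    rw [map_top_of_surjective _ (QuotientGroup.mk'_surjective N)] at h1
    obtain ⟨g, -, hg⟩ := h1.conj_eq hQ
    obtain ⟨g, rfl⟩ := QuotientGroup.mk'_surjective N g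
    exact ⟨cj(g, P), hP.cj_mem (mem_top g), by rw [map_cj, hg]⟩
  intro P Q hP hQ
  obtain ⟨P, hP', rfl⟩ := key P hP
  obtain ⟨Q, hQ', rfl⟩ := key Q hQ
  rw [← Subgroup.map_sup]
  exact (h P Q hP' hQ').map _

theorem simple_case [IsSimpleGroup G] (h : Pairs p G)
    (hprop : ∀ H : Subgroup G, H ≠ ⊤ → IsPSolvable p H) : IsPSolvable p G := by
  by_contra hns
  have hnc : ¬ ∀ a b : G, a * b = b * a := fun hc =>
    hns (isPSolvable_of_isSolvable (Group.isSolvable_of_comm hc))
  have hZ : ∀ u : G, u ≠ 1 → centralizer {u} ≠ ⊤ := by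
    intro u hu ht
    have h1 : u ∈ center G := mem_center_iff.2 fun g =>
      mem_centralizer_singleton_iff.1 (ht ▸ mem_top g)
    rcases (inferInstance : (center G).Normal).eq_bot_or_eq_top with h0 | h0
    · rw [h0] at h1; exact hu h1
    · exact hnc fun a b => mem_center_iff.1 (h0 ▸ mem_top b) a
  have hcomm : commutator G = ⊤ := by
    rcases (inferInstance : (commutator G).Normal).eq_bot_or_eq_top with h0 | h0
    · refine absurd (fun a b => commutatorElement_eq_one_iff_mul_comm.1 ?_) hnc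
      exact mem_bot.1 (h0 ▸ commutator_mem_commutator (mem_top a) (mem_top b))
    · exact h0
  obtain ⟨P⟩ : Nonempty (Sylow p G) := inferInstance
  have hP := Syl.of_sylow P
  have hP0 : (P : Subgroup G) ≠ ⊥ := fun h0 => by
    have := hP.eq_bot_iff.1 h0
    rw [card_top] at this
    exact hns (isPSolvable_of_coprime this)
  have hV0 : Vc p (P : Subgroup G) ≠ ⊥ := by
    obtain ⟨z, hz⟩ := ne_bot_iff_exists_ne_one.1
      (th_inf_center_ne_bot hP.pg le_rfl le_normalizer hP0)
    exact ne_bot_iff_exists_ne_one.2 ⟨⟨z, mem_Vc ⟨P, hP, z.2.1, z.2.2⟩ z.2.1⟩,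
      fun h0 => hz (Subtype.ext (by simpa using congrArg Subtype.val h0))⟩
  have hVp : IsPGroup p (Vc p (P : Subgroup G)) := hP.pg.to_le (Vc_le _)
  have hV1 : 1 < Nat.card (Vc p (P : Subgroup G)) := (one_lt_card_iff_ne_bot _).2 hV0
  have hVc := Vc_comm h hP.pg
  by_cases h2 : Nat.card (Vc p (P : Subgroup G)) = 2
  · obtain ⟨k, hk⟩ := IsPGroup.iff_card.1 hVp
    obtain rfl : p = 2 := by
      rcases k with _ | k
      · rw [pow_zero] at hk; omega
      · have : p ∣ 2 := by rw [← h2, hk]; exact dvd_pow_self p (Nat.succ_ne_zero k)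
        exact (Nat.prime_dvd_prime_iff_eq hp.out Nat.prime_two).1 this
    obtain ⟨a, ha, hau⟩ := (Nat.card_eq_two_iff' (1 : Vc 2 (P : Subgroup G))).1 h2
    have ha1 : (a : G) ≠ 1 := fun h0 => ha (Subtype.ext h0)
    have hord : orderOf (a : G) = 2 := by
      rw [Subgroup.orderOf_coe]
      exact orderOf_eq_prime (h2 ▸ pow_card_eq_one' (x := a) :) ha
    obtain ⟨N, hN, hodd, hN'⟩ := S0215.result P a hord (Vc_le _ a.2) (fun g hg => by
      have h3 := strongly_closed h hP a.2 hg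
      refine congrArg Subtype.val (hau ⟨_, h3⟩ fun h0 => ha1 ?_)
      have h4 : g * a * g⁻¹ = 1 := congrArg Subtype.val h0
      simpa using h4)
    rcases hN.eq_bot_or_eq_top with h0 | h0
    · refine hZ a ha1 (eq_top_iff.2 fun g _ => mem_centralizer_singleton_iff.2 ?_)
      have := hN' g
      rw [h0, mem_bot] at this
      exact (commutatorElement_eq_one_iff_mul_comm.1 this).symm
    · rw [h0, card_top] at hodd
      exact (Nat.not_even_iff_odd.2 hodd) (even_iff_two_dvd.2 (hord ▸ orderOf_dvd_natCard _))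
  refine char_contra hVp (by omega) (fun g => ?_) (fun c hc hc1 => ?_)
  · have hS : Syl p (P : Subgroup G) ((P : Subgroup G) ⊔ cj(g, (P : Subgroup G))) :=
      hP.mono le_sup_left le_top
    have hn : (P : Subgroup G) ≤ 𝐍[pPrimeCoreOf p ((P : Subgroup G) ⊔ cj(g, (P : Subgroup G)))] :=
      le_sup_left.trans (le_normalizer_pPrimeCoreOf _)
    refine ⟨pPrimeCoreOf p ((P : Subgroup G) ⊔ cj(g, (P : Subgroup G))),
      coprime_card_pPrimeCoreOf p _, (Vc_le _).trans hn, fun b hb =>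
        exists_rep h (h _ _ hP (hP.cj_mem (mem_top g))) hS hb le_sup_right, fun u hu h1 o ho => ?_⟩
    obtain ⟨v, hv, hvu, hcj⟩ := exists_conj_cent hS (Vc_le _ hu) ho
    exact ⟨v, cent_le_core h hP (coprime_card_pPrimeCoreOf p _) hn hu (hprop _ (hZ u h1)) hv hvu,
      hcj⟩
  · by_cases hex : ∃ c' ∈ Vc p (P : Subgroup G), c' ≠ c ∧ IsConj c c'
    · exact Or.inl ⟨hex, fun v hv => mem_centralizer_singleton_iff.2 (mem_cent.1 (hVc hc) v hv)⟩
    push Not at hex
    have hfix : ∀ g ∈ 𝐍[(P : Subgroup G)], g * c = c * g := by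
      intro g hg
      by_contra hne
      refine hex _ (conj_mem_of_norm (norm_Vc _ hg) hc) (fun h0 => hne ?_) (isConj_iff.2 ⟨g, rfl⟩)
      rw [← h0, inv_mul_cancel_right, h0]
    refine Or.inr ⟨P, hP.pg, fun g hg =>
      mem_centralizer_singleton_iff.2 (hfix g (le_normalizer hg)), ?_⟩
    by_cases hVP : Vc p (P : Subgroup G) = P
    · exfalso
      have hab : IsMulCommutative (P : Subgroup G) := ⟨⟨fun a b => Subtype.ext
        (mem_cent.1 (hVc (hVP.symm ▸ b.2)) a (hVP.symm ▸ a.2))⟩⟩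
      obtain ⟨N, -, hN, hcpl⟩ := Tr.exists_normal_complement_of_abelian_sylow P hab
      rw [hcomm] at hN
      exact hc1 (disjoint_def.1 hcpl.disjoint (hN (mem_top c))
        ⟨Vc_le _ hc, mem_centralizer_iff.2 hfix⟩)
    · obtain ⟨m, hm⟩ := card_dvd_of_le (Vc_le (p := p) (P : Subgroup G))
      have hm0 : m ≠ 0 := by
        rintro rfl
        exact (Nat.card_pos (α := (P : Subgroup G))).ne' (by simpa using hm)
      have hm1 : m ≠ 1 := by
        rintro rfl
        exact hVP (eq_of_le_of_card_ge (Vc_le _) (by omega))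
      rw [hm, mul_comm]
      exact Nat.mul_le_mul_left _ (by omega)

theorem isPSolvable_of_pairs (G : Type u) [Group G] [Finite G] (h : Pairs p G) :
    IsPSolvable p G := by
  revert h
  refine card_induction (P := fun G _ _ => Pairs p G → IsPSolvable p G) ?_ G
  intro G _ _ ih h
  rcases subsingleton_or_nontrivial G with hG | hG
  · exact isPSolvable_of_isSolvable inferInstance
  by_cases hs : IsSimpleGroup G
  · exact simple_case h fun H hH => ih H (card_lt_of_ne_top hH) (h.sub H)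
  have : ∃ N : Subgroup G, N.Normal ∧ N ≠ ⊥ ∧ N ≠ ⊤ := by
    by_contra hc
    push Not at hc
    exact hs ⟨fun N hN' => by
      by_cases hb : N = ⊥
      · exact Or.inl hb
      · exact Or.inr (hc N hN' hb)⟩
  obtain ⟨N, hn, hb, ht⟩ := this
  exact IsPSolvable.extension N (ih N (card_lt_of_ne_top ht) (h.sub N))
    (ih (G ⧸ N) (card_quotient_lt hb) (h.quo N))

theorem pairs_of_one {P : Subgroup G} (hP : Syl p P ⊤)
    (h : ∀ g : G, IsPSolvable p ↥(P ⊔ cj(g, P))) : Pairs p G := by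
  intro Q R hQ hR
  obtain ⟨a, -, rfl⟩ := hP.conj_eq hQ
  obtain ⟨b, -, rfl⟩ := hP.conj_eq hR
  have := (h (a⁻¹ * b)).map (MulAut.conj a).toMonoidHom
  rwa [cj_sup, cj_cj, mul_inv_cancel_left] at this

end Cfsg.Agent.PS2
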