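import Cfsg.Agent.Blk.PB
import Cfsg.Agent.Ch.Kernel
import Cfsg.Agent.Ch.ClassMult

/-! Positive semidefiniteness of an irreducible character and its consequences. -/

set_option autoImplicit false

open Cfsg ComplexConjugate

namespace Cfsg.Agent.PS2

variable {G : Type*} [Group G]

theorem psd_conv [Fintype G] {χ : G → ℂ} (h : IsIrrCharacter G χ) (x y : G) :
    ∑ z, conj (χ (z * x)) * χ (z * y) = Nat.card G / χ 1 * χ (x⁻¹ * y) := by
  have h1 := h.sum_conj_mul_apply_mul h.isClassFunction (x⁻¹ * y)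
  rw [h.classInner_self, mul_one] at h1
  rw [← h1]
  exact Fintype.sum_equiv (Equiv.mulRight x) _ _ (fun z => by simp [mul_assoc])

theorem psd_fam [Fintype G] {χ : G → ℂ} (h : IsIrrCharacter G χ) {ι : Type*} [Fintype ι]
    (x : ι → G) (c : ι → ℝ) :
    0 ≤ (∑ i, ∑ j, ((c i * c j : ℝ) : ℂ) * χ ((x i)⁻¹ * x j)).re := by
  have hd : (0 : ℝ) < charDegree χ := by exact_mod_cast h.charDegree_pos
  have hG : (0 : ℝ) < Nat.card G := by exact_mod_cast Nat.card_pos
  have key : ((Nat.card G / charDegree χ : ℝ) : ℂ) *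
      ∑ i, ∑ j, ((c i * c j : ℝ) : ℂ) * χ ((x i)⁻¹ * x j) =
      ∑ z, ((Complex.normSq (∑ i, (c i : ℂ) * χ (z * x i)) : ℝ) : ℂ) := by
    have e1 : ∀ z, ((Complex.normSq (∑ i, (c i : ℂ) * χ (z * x i)) : ℝ) : ℂ) =
        ∑ i, ∑ j, ((c i * c j : ℝ) : ℂ) * (conj (χ (z * x i)) * χ (z * x j)) := by
      intro z
      rw [Complex.normSq_eq_conj_mul_self, map_sum, Finset.sum_mul_sum]
      refine Finset.sum_congr rfl fun i _ => Finset.sum_congr rfl fun j _ => ?_
      simp only [map_mul, Complex.conj_ofReal, Complex.ofReal_mul]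
      ring
    simp_rw [e1]
    rw [Finset.mul_sum]
    symm
    rw [Finset.sum_comm]
    refine Finset.sum_congr rfl fun i _ => ?_
    rw [Finset.sum_comm, Finset.mul_sum]
    refine Finset.sum_congr rfl fun j _ => ?_
    rw [← Finset.mul_sum, psd_conv h, ← h.coe_charDegree]
    push_cast
    ring
  have h2 := congrArg Complex.re key
  rw [Complex.re_ofReal_mul] at h2
  have h3 : 0 ≤ (∑ z, ((Complex.normSq (∑ i, (c i : ℂ) * χ (z * x i)) : ℝ) : ℂ)).re := by
    rw [Complex.re_sum]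
    exact Finset.sum_nonneg fun z _ => by rw [Complex.ofReal_re]; exact Complex.normSq_nonneg _
  rw [← h2] at h3
  exact (mul_nonneg_iff_of_pos_left (div_pos hG hd)).1 h3

theorem re_nat_mul (n : ℕ) (z : ℂ) : ((n : ℂ) * z).re = n * z.re := by simp

theorem sum_sub_mul (H : Subgroup G) [Fintype H] (χ : G → ℂ) {x : G} (hx : x ∈ H) :
    ∑ h : H, χ (x * h) = ∑ h : H, χ h :=
  Fintype.sum_equiv (Equiv.mulLeft (⟨x, hx⟩ : H)) _ _ (fun _ => rfl)

theorem sum_sub_inv_mul (H : Subgroup G) [Fintype H] (χ : G → ℂ) {x : G} (hx : x ∈ H) :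
    ∑ h : H, χ ((h : G)⁻¹ * x) = ∑ h : H, χ h :=
  Fintype.sum_equiv ((Equiv.inv H).trans (Equiv.mulRight (⟨x, hx⟩ : H))) _ _ (fun _ => rfl)

theorem psd_sub [Fintype G] {χ : G → ℂ} (h : IsIrrCharacter G χ) (H : Subgroup G) [Fintype H]
    {ι : Type*} [Fintype ι] (x : ι → G) (hx : ∀ i, x i ∈ H) :
    (Fintype.card ι : ℝ) ^ 2 * (∑ k : H, χ k).re ≤
      Nat.card H * (∑ i, ∑ j, χ ((x i)⁻¹ * x j)).re := by
  have hH : (0 : ℝ) < Nat.card H := by exact_mod_cast Nat.card_pos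
  have h0 := psd_fam h (ι := ι ⊕ H) (Sum.elim x (fun k => (k : G)))
    (Sum.elim (fun _ => (Nat.card H : ℝ)) (fun _ => -(Fintype.card ι : ℝ)))
  simp only [Fintype.sum_sum_type, Sum.elim_inl, Sum.elim_inr, Finset.sum_add_distrib,
    ← Finset.mul_sum] at h0
  have e1 : ∑ i, ∑ k : H, χ ((x i)⁻¹ * k) = Fintype.card ι * ∑ k : H, χ k := by
    rw [Finset.sum_congr rfl fun i _ => sum_sub_mul H χ (H.inv_mem (hx i))]
    simp
  have e2 : ∑ k : H, ∑ i, χ ((k : G)⁻¹ * x i) = Fintype.card ι * ∑ k : H, χ k := by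
    rw [Finset.sum_comm, Finset.sum_congr rfl fun i _ => sum_sub_inv_mul H χ (hx i)]
    simp
  have e3 : ∑ k : H, ∑ l : H, χ ((k : G)⁻¹ * l) = Nat.card H * ∑ k : H, χ k := by
    rw [Finset.sum_congr rfl fun k _ => sum_sub_mul H χ (H.inv_mem k.2)]
    simp
  rw [e1, e2, e3] at h0
  simp only [Complex.add_re, Complex.re_ofReal_mul, re_nat_mul] at h0
  have : 0 ≤ (Nat.card H : ℝ) * (Nat.card H * (∑ i, ∑ j, χ ((x i)⁻¹ * x j)).re -
      (Fintype.card ι : ℝ) ^ 2 * (∑ k : H, χ k).re) := by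
    nlinarith [h0]
  have := (mul_nonneg_iff_of_pos_left hH).1 this
  linarith

theorem sum_sub_nonneg [Fintype G] {χ : G → ℂ} (h : IsIrrCharacter G χ) (H : Subgroup G)
    [Fintype H] : 0 ≤ (∑ k : H, χ k).re := by
  have hH : (0 : ℝ) < Nat.card H := by exact_mod_cast Nat.card_pos
  have h0 := psd_fam h (ι := H) (fun k => (k : G)) (fun _ => 1)
  have e3 : ∑ k : H, ∑ l : H, χ ((k : G)⁻¹ * l) = Nat.card H * ∑ k : H, χ k := by
    rw [Finset.sum_congr rfl fun k _ => sum_sub_mul H χ (H.inv_mem k.2)]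
    simp
  simp only [mul_one, Complex.ofReal_one, one_mul] at h0
  rw [e3, re_nat_mul] at h0
  exact (mul_nonneg_iff_of_pos_left hH).1 h0

end Cfsg.Agent.PS2
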